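import Cfsg.Agent.FG.Derange
import Mathlib.GroupTheory.Sylow
import Mathlib.GroupTheory.SpecificGroups.Cyclic

/-! Two-point stabilisers of doubly transitive groups: fixed sets (lines), long orbits and orbit counts. -/

set_option autoImplicit false

open MulAction Subgroup Cfsg.Agent.FG

namespace Cfsg.Agent.Der2

variable {G Ω : Type*} [Group G] [MulAction G Ω]

/-- Two-point stabiliser. -/
def St (G : Type*) [Group G] [MulAction G Ω] (a b : Ω) : Subgroup G := stabilizer G a ⊓ stabilizer G b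

/-- Double transitivity. -/
def T2 (G Ω : Type*) [Group G] [MulAction G Ω] : Prop :=
  ∀ a b c d : Ω, a ≠ b → c ≠ d → ∃ g : G, g • a = c ∧ g • b = d

/-- Points fixed by the two-point stabiliser. -/
def Fx (G : Type*) [Group G] [MulAction G Ω] (a b : Ω) : Set Ω := {w | ∀ x ∈ St G a b, x • w = w}

/-- Points in orbits of length at least three of the two-point stabiliser. -/
def Big (G : Type*) [Group G] [MulAction G Ω] (a b : Ω) : Set Ω := {w | 2 < (orbit (St G a b) w).ncard}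

theorem mem_St {a b : Ω} {x : G} : x ∈ St G a b ↔ x • a = a ∧ x • b = b := Iff.rfl

theorem mem_St_smul {a b : Ω} {g x : G} : x ∈ St G (g • a) (g • b) ↔ g⁻¹ * x * g ∈ St G a b := by
  simp only [mem_St, mul_smul, inv_smul_eq_iff]

theorem St_smul (g : G) (a b : Ω) : St G (g • a) (g • b) = (St G a b).map (MulAut.conj g).toMonoidHom := by
  ext x
  rw [mem_St_smul, mem_map_equiv]
  simp

theorem card_St (h2 : T2 G Ω) {a b c d : Ω} (hab : a ≠ b) (hcd : c ≠ d) :
    Nat.card (St G c d) = Nat.card (St G a b) := by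
  obtain ⟨g, rfl, rfl⟩ := h2 a b c d hab hcd
  rw [St_smul, card_map_of_injective (MulAut.conj g).injective]

theorem St_eq [Finite G] (h2 : T2 G Ω) {a b u v : Ω} (hab : a ≠ b) (huv : u ≠ v) (hu : u ∈ Fx G a b)
    (hv : v ∈ Fx G a b) : St G u v = St G a b :=
  (eq_of_le_of_card_ge (fun x hx => mem_St.2 ⟨hu x hx, hv x hx⟩) (card_St h2 hab huv).le).symm

theorem left_mem_Fx (a b : Ω) : a ∈ Fx G a b := fun _ hx => hx.1
theorem right_mem_Fx (a b : Ω) : b ∈ Fx G a b := fun _ hx => hx.2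

theorem Fx_smul (g : G) (a b : Ω) : Fx G (g • a) (g • b) = (fun w => g • w) '' Fx G a b := by
  ext w
  constructor
  · intro hw
    refine ⟨g⁻¹ • w, fun x hx => ?_, smul_inv_smul _ _⟩
    have := hw (g * x * g⁻¹) (mem_St_smul.2 (by simpa [mul_assoc] using hx))
    rw [mul_smul, mul_smul, smul_eq_iff_eq_inv_smul] at this
    exact this
  · rintro ⟨v, hv, rfl⟩ x hx
    have := hv _ (mem_St_smul.1 hx)
    rw [mul_smul, mul_smul, inv_smul_eq_iff] at this
    exact this

theorem ncard_Fx (h2 : T2 G Ω) {a b c d : Ω} (hab : a ≠ b) (hcd : c ≠ d) :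
    (Fx G c d).ncard = (Fx G a b).ncard := by
  obtain ⟨g, rfl, rfl⟩ := h2 a b c d hab hcd
  rw [Fx_smul, Set.ncard_image_of_injective _ (MulAction.injective g)]

theorem orbit_smul' (g : G) (a b w : Ω) :
    orbit (St G (g • a) (g • b)) (g • w) = (fun w => g • w) '' orbit (St G a b) w := by
  ext v
  constructor
  · rintro ⟨⟨x, hx⟩, rfl⟩
    exact ⟨_, ⟨⟨_, mem_St_smul.1 hx⟩, rfl⟩, by simp [Subgroup.smul_def, mul_smul]⟩
  · rintro ⟨_, ⟨⟨x, hx⟩, rfl⟩, rfl⟩
    exact ⟨⟨g * x * g⁻¹, mem_St_smul.2 (by simpa [mul_assoc] using hx)⟩, by simp [Subgroup.smul_def, mul_smul]⟩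

theorem Big_smul (g : G) (a b : Ω) : Big G (g • a) (g • b) = (fun w => g • w) '' Big G a b := by
  have h : ∀ w, g • w ∈ Big G (g • a) (g • b) ↔ w ∈ Big G a b := fun w => by
    simp only [Big, Set.mem_setOf_eq, orbit_smul', Set.ncard_image_of_injective _ (MulAction.injective g)]
  ext w
  constructor
  · intro hw
    exact ⟨g⁻¹ • w, (h _).1 (by rwa [smul_inv_smul]), smul_inv_smul _ _⟩
  · rintro ⟨v, hv, rfl⟩
    exact (h v).2 hv

theorem ncard_Big (h2 : T2 G Ω) {a b c d : Ω} (hab : a ≠ b) (hcd : c ≠ d) :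
    (Big G c d).ncard = (Big G a b).ncard := by
  obtain ⟨g, rfl, rfl⟩ := h2 a b c d hab hcd
  rw [Big_smul, Set.ncard_image_of_injective _ (MulAction.injective g)]

theorem eq_of_not_Big [Finite Ω] {a b w : Ω} (hw : w ∉ Big G a b) {x y : G} (hx : x ∈ St G a b)
    (hy : y ∈ St G a b) (hxw : x • w ≠ w) (hyw : y • w ≠ w) : x • w = y • w := by
  by_contra h
  exact hw ((Set.two_lt_ncard).2 ⟨w, mem_orbit_self w, x • w, ⟨⟨x, hx⟩, rfl⟩, y • w, ⟨⟨y, hy⟩, rfl⟩,
    hxw.symm, hyw.symm, h⟩)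

theorem orbit_subset_Big {a b w : Ω} (hw : w ∈ Big G a b) : orbit (St G a b) w ⊆ Big G a b := fun v hv => by
  simp only [Big, Set.mem_setOf_eq]
  rwa [orbit_eq_iff.2 hv]

/-- Lines through a moved point: `fix g * (f - 1) ≤ n - 1`. -/
theorem nfix_mul_le [Finite G] [Finite Ω] (h2 : T2 G Ω) {a b : Ω} (hab : a ≠ b) {g : G} {z : Ω} (hz : g • z ≠ z) :
    nfix Ω g * ((Fx G a b).ncard - 1) ≤ Nat.card Ω - 1 := by
  classical
  haveI := Fintype.ofFinite Ω
  have hne : ∀ u : fixedBy Ω g, z ≠ u := fun u e => hz (e ▸ u.2)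
  have hc : ∀ u : fixedBy Ω g, Nat.card (Fx G z u \ {z} : Set Ω) = (Fx G a b).ncard - 1 := fun u => by
    rw [Nat.card_coe_set_eq, Set.ncard_diff_singleton_of_mem (left_mem_Fx _ _), ncard_Fx h2 hab (hne u)]
  have h1 : Nat.card (Σ u : fixedBy Ω g, (Fx G z u \ {z} : Set Ω)) = nfix Ω g * ((Fx G a b).ncard - 1) := by
    rw [Nat.card_sigma, Finset.sum_congr rfl fun u _ => hc u, Finset.sum_const, Finset.card_univ, smul_eq_mul,
      ← Nat.card_eq_fintype_card]
  have h3 : Nat.card ({z}ᶜ : Set Ω) = Nat.card Ω - 1 := by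
    rw [Nat.card_coe_set_eq, Set.ncard_compl, Set.ncard_singleton]
  rw [← h1, ← h3]
  refine Nat.card_le_card_of_injective (fun p => ⟨p.2.1, p.2.2.2⟩) ?_
  rintro ⟨u, w, hw, hwz⟩ ⟨u', w', hw', hwz'⟩ e
  obtain rfl : w = w' := congrArg Subtype.val e
  obtain rfl : u = u' := by
    by_contra huu
    have e1 := St_eq h2 (hne u) (Ne.symm hwz) (left_mem_Fx _ _) hw
    have e2 := St_eq h2 (hne u') (Ne.symm hwz) (left_mem_Fx _ _) hw'
    have e3 := St_eq h2 (hne u) (fun e => huu (Subtype.ext e)) (right_mem_Fx _ _)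
      (show (u' : Ω) ∈ Fx G z u from fun x hx => by rw [← e1, e2] at hx; exact hx.2)
    have : g ∈ St G z u := e3 ▸ ⟨u.2, u'.2⟩
    exact hz this.1
  rfl

/-- Orbit count: `6 o + β ≤ 3 n + 3 f`. -/
theorem norb_le [Finite G] [Finite Ω] (a b : Ω) :
    6 * norb (St G a b) Ω + (Big G a b).ncard ≤ 3 * Nat.card Ω + 3 * (Fx G a b).ncard := by
  classical
  haveI := Fintype.ofFinite Ω
  haveI := Fintype.ofFinite (St G a b)
  set H := St G a b
  have h1 : ∑ w : Ω, Nat.card (stabilizer H w) = norb H Ω * Nat.card H := by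
    rw [← sum_nfix, ← Nat.card_sigma, ← Nat.card_sigma]
    exact Nat.card_congr ⟨fun p => ⟨p.2.1, p.1, p.2.2⟩, fun p => ⟨p.2.1, p.1, p.2.2⟩, fun _ => rfl, fun _ => rfl⟩
  have h3 : ∀ w : Ω, 6 * Nat.card (stabilizer H w) + (if w ∈ Big G a b then 1 else 0) * Nat.card H ≤
      3 * Nat.card H + 3 * (if w ∈ Fx G a b then 1 else 0) * Nat.card H := fun w => by
    have h4 := (stabilizer H w).card_mul_index
    rw [index_stabilizer] at h4
    have h5 : 0 < (orbit H w).ncard := (Set.ncard_pos).2 ⟨w, mem_orbit_self w⟩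
    have h6 : w ∉ Fx G a b → 1 < (orbit H w).ncard := fun h => by
      simp only [Fx, Set.mem_setOf_eq, not_forall] at h
      obtain ⟨x, hx, hw⟩ := h
      exact (Set.one_lt_ncard).2 ⟨x • w, ⟨⟨x, hx⟩, rfl⟩, w, mem_orbit_self w, hw⟩
    have h7 : w ∈ Big G a b → 2 < (orbit H w).ncard := id
    split_ifs with p q q
    · have := h7 p; nlinarith
    · have := h7 p; nlinarith
    · nlinarith
    · have := h6 q; nlinarith
  have h4 := Finset.sum_le_sum fun w (_ : w ∈ Finset.univ) => h3 w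
  rw [Finset.sum_add_distrib, Finset.sum_add_distrib, ← Finset.mul_sum, h1, ← Finset.sum_mul, ← Finset.sum_mul,
    ← Finset.sum_mul, ← Finset.mul_sum, ← Finset.card_filter, ← Finset.card_filter, Finset.sum_const, Finset.card_univ, smul_eq_mul,
    ← Nat.card_eq_fintype_card] at h4
  have e1 : (Finset.univ.filter (· ∈ Big G a b)).card = (Big G a b).ncard := by
    rw [← Set.ncard_coe_finset]; congr 1; ext; simp
  have e2 : (Finset.univ.filter (· ∈ Fx G a b)).card = (Fx G a b).ncard := by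
    rw [← Set.ncard_coe_finset]; congr 1; ext; simp
  rw [e1, e2] at h4
  have h0 : 0 < Nat.card H := Nat.card_pos
  refine Nat.le_of_mul_le_mul_right ?_ h0
  nlinarith

end Cfsg.Agent.Der2
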