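import Cfsg.Agent.Der2.A

/-! Doubly transitive groups of degree at least seven: the orbit count of a nontrivial two-point stabiliser. -/

set_option autoImplicit false

open MulAction Subgroup Cfsg.Agent.FG

namespace Cfsg.Agent.Der2

variable {G Ω : Type*} [Group G] [MulAction G Ω] [Finite G] [Finite Ω] [FaithfulSMul G Ω]

theorem Big_eq_empty (h2 : T2 G Ω) (hn : 7 ≤ Nat.card Ω) {a b : Ω} (hab : a ≠ b) (h3 : (Big G a b).ncard ≤ 3) :
    Big G a b = ∅ := by
  classical
  refine Set.eq_empty_of_forall_notMem fun w hw => ?_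
  have ho : (orbit (St G a b) w).ncard = 3 :=
    le_antisymm ((Set.ncard_le_ncard (orbit_subset_Big hw)).trans h3) hw
  haveI : Fact (Nat.Prime 3) := ⟨by norm_num⟩
  have hd : 3 ∣ Nat.card (St G a b) := by
    rw [← ho, ← index_stabilizer]; exact index_dvd_card _
  obtain ⟨⟨x, hx⟩, hx3⟩ := exists_prime_orderOf_dvd_card' 3 hd
  have hx3' : orderOf x = 3 := by rw [← hx3]; exact (Subgroup.orderOf_mk x hx).symm
  have hxx : ∀ v : Ω, x • x • x • v = v := fun v => by
    rw [← mul_smul, ← mul_smul, ← pow_three', ← hx3', pow_orderOf_eq_one, one_smul]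
  have hx2 : ∀ v : Ω, x • x • v = v → x • v = v := fun v h => by
    have := hxx v
    rwa [h] at this
  have hfix : ∀ v : Ω, v ∉ Big G a b → x • v = v := fun v hv => by
    by_contra h
    have := eq_of_not_Big hv hx (inv_mem hx) h (fun e => h (by rw [inv_smul_eq_iff] at e; exact e.symm))
    rw [eq_inv_smul_iff] at this
    exact h (hx2 v this)
  have hx1 : x ≠ 1 := fun e => by rw [e, orderOf_one] at hx3'; omega
  obtain ⟨c, hc⟩ := Perm.exists_smul_ne (α := Ω) hx1
  have hcB : c ∈ Big G a b := by_contra fun h => hc (hfix c h)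
  have hca : c ≠ a := fun e => hc (e ▸ hx.1)
  obtain ⟨g, hg1, hg2⟩ := h2 c (x • c) c a hc.symm hca
  set U : Set Ω := Big G a b ∪ (fun w => g • w) '' Big G a b
  have hU : U.ncard ≤ 5 := by
    have e1 := Set.ncard_union_add_ncard_inter (Big G a b) ((fun w => g • w) '' Big G a b)
    have e2 : 0 < (Big G a b ∩ (fun w => g • w) '' Big G a b).ncard := (Set.ncard_pos).2 ⟨c, hcB, c, hcB, hg1⟩
    rw [Set.ncard_image_of_injective _ (MulAction.injective g)] at e1
    change U.ncard + _ = _ at e1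
    omega
  have hUc : 1 < (Uᶜ).ncard := by rw [Set.ncard_compl]; omega
  obtain ⟨p, hp, q, hq, hpq⟩ := (Set.one_lt_ncard).1 hUc
  have hy : ∀ v, v ∉ U → (g * x * g⁻¹) • v = v := fun v hv => by
    rw [mul_smul, mul_smul, hfix (g⁻¹ • v) fun h => hv (Or.inr ⟨_, h, smul_inv_smul _ _⟩), smul_inv_smul]
  have hxS : x ∈ St G p q := ⟨hfix p fun h => hp (Or.inl h), hfix q fun h => hq (Or.inl h)⟩
  have hyS : g * x * g⁻¹ ∈ St G p q := ⟨hy p hp, hy q hq⟩
  have hyc : (g * x * g⁻¹) • c = a := by
    rw [mul_smul, mul_smul, inv_smul_eq_iff.2 hg1.symm, hg2]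
  have hxa : x • a = a := hx.1
  have d1 : c ≠ x • x • c := fun e => hc (hx2 c e.symm)
  have d2 : x • c ≠ x • x • c := fun e => hc (smul_left_cancel x e).symm
  have d3 : x • c ≠ a := fun e => hca (smul_left_cancel x (e.trans hxa.symm))
  have d4 : x • x • c ≠ a := fun e => d3 (smul_left_cancel x (e.trans hxa.symm))
  have h4 : 3 < (orbit (St G p q) c).ncard :=
    (Set.three_lt_ncard).2 ⟨c, mem_orbit_self c, x • c, ⟨⟨x, hxS⟩, rfl⟩, x • x • c,
      ⟨⟨x * x, mul_mem hxS hxS⟩, mul_smul x x c⟩, a, ⟨⟨_, hyS⟩, hyc⟩, hc.symm, d1, hca, d2, d3, d4⟩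
  have h5 : c ∈ Big G p q := lt_trans (by norm_num) h4
  have h6 := Set.ncard_le_ncard (orbit_subset_Big h5)
  rw [ncard_Big h2 hab hpq] at h6
  omega

theorem card_St_le_two (h2 : T2 G Ω) {a b : Ω} (hab : a ≠ b) (h0 : Big G a b = ∅) : Nat.card (St G a b) ≤ 2 := by
  have hB : ∀ {c d : Ω}, c ≠ d → ∀ w, w ∉ Big G c d := fun {c d} hcd w => by
    have := ncard_Big h2 hab hcd
    rw [h0, Set.ncard_empty, Set.ncard_eq_zero] at this
    rw [this]; exact id
  have hsq : ∀ {c d : Ω}, c ≠ d → ∀ x ∈ St G c d, x * x = 1 := fun {c d} hcd x hx =>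
    eq_of_smul_eq_smul (α := Ω) fun w => by
      rw [one_smul, mul_smul]
      by_cases h : x • w = w
      · rw [h, h]
      · have := eq_of_not_Big (hB hcd w) hx (inv_mem hx) h (fun e => h (by rw [inv_smul_eq_iff] at e; exact e.symm))
        rwa [eq_inv_smul_iff] at this
  have hcom : ∀ {c d : Ω}, c ≠ d → ∀ x ∈ St G c d, ∀ y ∈ St G c d, x * y = y * x := fun {c d} hcd x hx y hy => by
    have e1 := hsq hcd x hx
    have e2 := hsq hcd y hy
    have e3 := hsq hcd (x * y) (mul_mem hx hy)
    calc x * y = x * (x * y * (x * y)) * y := by rw [e3, mul_one]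
      _ = (x * x) * (y * x) * (y * y) := by simp only [mul_assoc]
      _ = y * x := by rw [e1, e2, one_mul, mul_one]
  by_contra hlt
  haveI : Nontrivial (St G a b) := Finite.one_lt_card_iff_nontrivial.1 (by omega)
  obtain ⟨⟨t, ht⟩, ht1⟩ := exists_ne (1 : St G a b)
  obtain ⟨c, hc⟩ := Perm.exists_smul_ne (α := Ω) (g := t) fun e => ht1 (Subtype.ext e)
  have hcF : c ∉ Fx G a b := fun h => hc (h t ht)
  have hac : a ≠ c := fun e => hcF (e ▸ left_mem_Fx _ _)
  have hcb : c ≠ b := fun e => hcF (e ▸ right_mem_Fx _ _)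
  have key : ∀ k ∈ St G a b, k • c = c → k = 1 := fun k hk hkc => by
    by_contra hk1
    obtain ⟨z, hz⟩ := Perm.exists_smul_ne (α := Ω) hk1
    have haz : a ≠ z := fun e => hz (e ▸ hk.1)
    have hcz : c ≠ z := fun e => hz (e ▸ hkc)
    have hkac : k ∈ St G a c := ⟨hk.1, hkc⟩
    have hbF : b ∉ Fx G a c := fun h => by
      have := St_eq h2 hac hab (left_mem_Fx _ _) h
      exact hcF fun x hx => (this ▸ hx : x ∈ St G a c).2
    obtain ⟨u, hu, huz, hub⟩ : ∃ u ∈ St G a c, u • z = z ∧ u • b ≠ b := by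
      simp only [Fx, Set.mem_setOf_eq, not_forall] at hbF
      obtain ⟨m, hm, hmb⟩ := hbF
      by_cases h : m • z = z
      · exact ⟨m, hm, h, hmb⟩
      · refine ⟨k⁻¹ * m, mul_mem (inv_mem hkac) hm, ?_, ?_⟩
        · rw [mul_smul, eq_of_not_Big (hB hac z) hm hkac h hz, inv_smul_smul]
        · rw [mul_smul, Ne, inv_smul_eq_iff, show k • b = b from hk.2]; exact hmb
    have hF : ∀ {e : Ω}, e ≠ b → e ≠ z → u • e = e → k • e = e → u • b ∈ Fx G e b := fun {e} heb hez hue hke y hy => by
      have hc1 : ∀ y ∈ St G e b, y • z = z → y * u = u * y := fun y hy hyz =>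
        hcom hez y ⟨hy.1, hyz⟩ u ⟨hue, huz⟩
      have hkb : k ∈ St G e b := ⟨hke, hk.2⟩
      have hc2 : y * u = u * y := by
        by_cases h : y • z = z
        · exact hc1 y hy h
        · have e1 := hc1 (k⁻¹ * y) (mul_mem (inv_mem hkb) hy)
            (by rw [mul_smul, eq_of_not_Big (hB heb z) hy hkb h hz, inv_smul_smul])
          have e2 := hcom hac k hkac u hu
          calc y * u = k * (k⁻¹ * y * u) := by simp only [mul_assoc, mul_inv_cancel_left]
            _ = (k * u) * (k⁻¹ * y) := by rw [e1, mul_assoc]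
            _ = u * y := by rw [e2, mul_assoc, mul_inv_cancel_left]
      rw [← mul_smul, hc2, mul_smul, show y • b = b from hy.2]
    have e1 := St_eq h2 hab hub (hF hab haz hu.1 hk.1) (right_mem_Fx _ _)
    have e2 := St_eq h2 hcb hub (hF hcb hcz hu.2 hkc) (right_mem_Fx _ _)
    exact hcF fun x hx => (e2 ▸ e1 ▸ hx : x ∈ St G c b).1
  have h4 := (stabilizer (St G a b) c).card_mul_index
  have h5 : stabilizer (St G a b) c = ⊥ := (Perm.stabilizer_eq_bot_iff _ _).2 key
  have h6 : ¬ 2 < (orbit (St G a b) c).ncard := hB hab c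
  rw [index_stabilizer, h5, card_bot, one_mul] at h4
  omega

omit [FaithfulSMul G Ω] in
theorem card_eq (h2 : T2 G Ω) {a b : Ω} (hab : a ≠ b) :
    Nat.card G = Nat.card (St G a b) * (Nat.card Ω * Nat.card Ω - Nat.card Ω) := by
  classical
  haveI := Fintype.ofFinite Ω
  have h1 := (stabilizer G (a, b)).card_mul_index
  have e1 : stabilizer G (a, b) = St G a b := by
    ext x; rw [mem_stabilizer_iff, mem_St, Prod.ext_iff]; rfl
  have e2 : orbit G (a, b) = (Finset.univ.offDiag : Finset (Ω × Ω)) := by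
    ext ⟨c, d⟩
    simp only [Finset.coe_offDiag, Finset.coe_univ, Set.mem_offDiag, Set.mem_univ, true_and]
    constructor
    · rintro ⟨g, hg⟩ e
      have h1 : g • a = c := congrArg Prod.fst hg
      have h3 : g • b = d := congrArg Prod.snd hg
      exact hab (smul_left_cancel g (h1.trans (e.trans h3.symm)))
    · intro h
      obtain ⟨g, h1, h3⟩ := h2 a b c d hab h
      exact ⟨g, Prod.ext h1 h3⟩
  rw [index_stabilizer, e1, e2, Set.ncard_coe_finset, Finset.offDiag_card, Finset.card_univ,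
    ← Nat.card_eq_fintype_card] at h1
  exact h1.symm

theorem not_84 [IsPretransitive G Ω] (h7 : Nat.card Ω = 7) (hG : Nat.card G = 84) : False := by
  classical
  haveI : Fact (Nat.Prime 7) := ⟨by norm_num⟩
  haveI : Nonempty Ω := (Nat.card_pos_iff.1 (by omega)).1
  obtain ⟨a⟩ := ‹Nonempty Ω›
  obtain ⟨P⟩ : Nonempty (Sylow 7 G) := inferInstance
  have hP : Nat.card P = 7 := by
    rw [P.card_eq_multiplicity, hG, show 84 = 7 * 12 by rfl,
      Nat.factorization_mul_apply_of_coprime (by norm_num), Nat.Prime.factorization_self (by norm_num),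
      Nat.factorization_eq_zero_of_not_dvd (by norm_num)]
    rfl
  have hi : (P : Subgroup G).index = 12 := by
    have := (P : Subgroup G).card_mul_index
    rw [hP, hG] at this; omega
  have h1 : Nat.card (Sylow 7 G) = 1 := by
    have e1 := card_sylow_modEq_one 7 G
    have e2 := P.card_dvd_index
    rw [hi] at e2
    have e3 := Nat.le_of_dvd (by norm_num) e2
    interval_cases h : Nat.card (Sylow 7 G) <;> simp_all [Nat.ModEq]
  haveI : Subsingleton (Sylow 7 G) := (Nat.card_eq_one_iff_unique.1 h1).1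
  haveI := P.normal_of_subsingleton
  have hs : Nat.card (stabilizer G a) = 12 := by
    have := (stabilizer G a).card_mul_index
    rw [index_stabilizer_of_transitive, h7, hG] at this; omega
  have htr : IsPretransitive (P : Subgroup G) Ω := by
    refine Perm.isPretransitive_of_card_le a (fun x hx hxa => ?_) (by rw [h7, hP])
    have e1 : orderOf x ∣ 7 := hP ▸ (P : Subgroup G).orderOf_dvd_natCard hx
    have e2 : orderOf x ∣ 12 := hs ▸ (stabilizer G a).orderOf_dvd_natCard hxa
    exact orderOf_eq_one_iff.1 (Nat.eq_one_of_dvd_coprimes (by norm_num) e1 e2)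
  haveI : IsCyclic (P : Subgroup G) := isCyclic_of_prime_card hP
  have h6 : Nat.card (MulAut (P : Subgroup G)) = 6 := by
    rw [IsCyclic.card_mulAut, hP]; rfl
  have hinj : Function.Injective ((MulAut.conjNormal (H := (P : Subgroup G))).comp (stabilizer G a).subtype) := by
    refine (injective_iff_map_eq_one _).2 fun x hx => Subtype.ext ?_
    refine Perm.eq_one_of_commute htr (fun y hy => ?_) x.2
    have := congrArg (fun φ : MulAut (P : Subgroup G) => ((φ ⟨y, hy⟩ : (P : Subgroup G)) : G)) hx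
    simp only [MonoidHom.comp_apply, MulAut.conjNormal_apply, coe_subtype, MulAut.one_apply] at this
    rw [mul_inv_eq_iff_eq_mul] at this
    exact this.symm
  have := Nat.card_le_card_of_injective _ hinj
  omega

end Cfsg.Agent.Der2
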