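import Cfsg.Agent.Der2.B
import Mathlib.Algebra.Order.BigOperators.Ring.Finset
import Mathlib.Tactic.FieldSimp
import Mathlib.Tactic.Positivity

/-! Doubly transitive groups of degree at least seven: the key inequality for derangement counts. -/

set_option autoImplicit false

open MulAction Subgroup Cfsg.Agent.FG Finset

namespace Cfsg.Agent.Der2

variable {G Ω : Type*} [Group G] [MulAction G Ω] [Finite Ω] [FaithfulSMul G Ω]

open Classical in
theorem sum_erase_eq [Fintype G] (a b : Ω) :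
    Nat.card Ω + ∑ g ∈ (univ.filter (· ∈ St G a b)).erase 1, nfix Ω g = norb (St G a b) Ω * Nat.card (St G a b) := by
  rw [← sum_nfix_filter, ← nfix_one (G := G), add_sum_erase _ (fun g => nfix Ω g) (by simp)]

open Classical in
omit [Finite Ω] [FaithfulSMul G Ω] in
theorem card_erase_eq [Fintype G] (a b : Ω) :
    ((univ.filter (· ∈ St G a b)).erase 1).card = Nat.card (St G a b) - 1 := by
  rw [card_erase_of_mem (by simp), Nat.card_eq_fintype_card, Fintype.card_subtype]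

open Classical in
theorem key [Fintype G] [IsPretransitive G Ω] (h2 : T2 G Ω) (hn : 7 ≤ Nat.card Ω) {a b : Ω} (hab : a ≠ b) {k : ℕ}
    (hk : Nat.card (St G a b) = k + 1) (hk1 : 1 ≤ k) :
    (2 * k + 1) * ∑ g ∈ (univ.filter (· ∈ St G a b)).erase 1, nfix Ω g ≤ Nat.card Ω * k ^ 2 := by
  have h1 := sum_erase_eq (G := G) a b
  have h3 := card_erase_eq (G := G) a b
  have h4 := norb_le (G := G) a b
  have h5 : (∑ g ∈ (univ.filter (· ∈ St G a b)).erase 1, nfix Ω g) * ((Fx G a b).ncard - 1) ≤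
      k * (Nat.card Ω - 1) := by
    rw [sum_mul]
    refine (sum_le_card_nsmul _ _ (Nat.card Ω - 1) fun g hg => ?_).trans (by rw [h3, hk, smul_eq_mul]; rfl)
    obtain ⟨z, hz⟩ := Perm.exists_smul_ne (α := Ω) (ne_of_mem_erase hg)
    exact nfix_mul_le h2 hab hz
  have h6 : 1 < (Fx G a b).ncard := (Set.one_lt_ncard).2 ⟨a, left_mem_Fx _ _, b, right_mem_Fx _ _, hab⟩
  have h7 : (Big G a b).ncard ≤ 3 → k = 1 := fun h => by
    have := card_St_le_two h2 hab (Big_eq_empty h2 hn hab h)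
    omega
  have h8 : Nat.card Ω = 7 → k ≠ 1 := fun h e => by
    refine not_84 (G := G) h ?_
    rw [card_eq h2 hab, hk, e, h]
  rw [hk] at h1
  generalize ∑ g ∈ (univ.filter (· ∈ St G a b)).erase 1, nfix Ω g = S at *
  generalize norb (St G a b) Ω = o at *
  generalize (Fx G a b).ncard = f at *
  generalize (Big G a b).ncard = β at *
  obtain ⟨m, hm⟩ : ∃ m, Nat.card Ω = m + 1 := ⟨Nat.card Ω - 1, by omega⟩
  rw [hm] at h1 h4 h5 h8 hn ⊢
  rw [Nat.add_sub_cancel] at h5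
  have hT : (2 * k + 1) * o ≤ (m + 1) * (k + 1) → (2 * k + 1) * S ≤ (m + 1) * k ^ 2 := fun h => by
    have := Nat.mul_le_mul_right (k + 1) h
    nlinarith
  by_cases hf4 : 4 ≤ f
  · have e1 : S * 3 ≤ k * m := (Nat.mul_le_mul_left _ (by omega)).trans h5
    have e2 : (2 * k + 1) * S ≤ 3 * k * S := Nat.mul_le_mul_right _ (by omega)
    nlinarith
  by_cases hβ : β ≤ 3
  · obtain rfl := h7 hβ
    have : m + 1 ≠ 7 := fun e => h8 e rfl
    refine hT ?_
    omega
  by_cases hf2 : f = 2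
  · have : 2 * o ≤ m + 1 := by omega
    refine hT ?_
    nlinarith
  obtain rfl : f = 3 := by omega
  have e0 : 2 * o ≤ m + 2 := by omega
  by_cases hmk : 2 * k ≤ m
  · refine hT ?_
    nlinarith
  · have e1 : S * 2 ≤ k * m := h5
    have e2 : (2 * k + 1) * m ≤ 2 * (m + 1) * k := by nlinarith
    nlinarith

open Classical in
theorem bound [Fintype G] [IsPretransitive G Ω] (h2 : T2 G Ω) (hn : 7 ≤ Nat.card Ω) {a b : Ω} (hab : a ≠ b)
    (hk : 2 ≤ Nat.card (St G a b)) :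
    ∑ g with g ∈ St G a b, (1 : ℚ) ≤ ∑ g with g ∈ St G a b, ((Nat.card Ω : ℚ) - nfix Ω g) / nfix Ω g := by
  obtain ⟨k, hk'⟩ : ∃ k, Nat.card (St G a b) = k + 1 := ⟨_, (Nat.succ_pred_eq_of_pos (by omega)).symm⟩
  have hk1 : 1 ≤ k := by omega
  have h1 := key h2 hn hab hk' hk1
  have h3 := card_erase_eq (G := G) a b
  rw [hk', Nat.add_sub_cancel] at h3
  have hm : (1 : G) ∈ univ.filter (· ∈ St G a b) := by simp
  rw [← add_sum_erase _ _ hm, ← add_sum_erase _ _ hm, nfix_one, sub_self, zero_div, zero_add]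
  set s := (univ.filter (· ∈ St G a b)).erase 1
  have hpos : ∀ g ∈ s, (0 : ℚ) < nfix Ω g := fun g hg => by
    have : g ∈ St G a b := by simpa using mem_of_mem_erase hg
    exact_mod_cast (two_le_nfix hab this.1 this.2).le
  have h4 := sq_sum_div_le_sum_sq_div s (fun _ => (1 : ℚ)) hpos
  have e1 : ∑ g ∈ s, ((Nat.card Ω : ℚ) - nfix Ω g) / nfix Ω g =
      Nat.card Ω * ∑ g ∈ s, (1 : ℚ) ^ 2 / nfix Ω g - k := by
    rw [mul_sum, ← h3, card_eq_sum_ones, Nat.cast_sum, ← sum_sub_distrib]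
    refine sum_congr rfl fun g hg => ?_
    have := (hpos g hg).ne'
    field_simp
    simp
  rw [e1]
  simp only [sum_const, h3, nsmul_eq_mul, mul_one] at h4 ⊢
  have hS : (0 : ℚ) < ∑ g ∈ s, (nfix Ω g : ℚ) := sum_pos hpos (card_pos.1 (by omega))
  have h5 : (2 * k + 1 : ℚ) * ∑ g ∈ s, (nfix Ω g : ℚ) ≤ Nat.card Ω * k ^ 2 := by exact_mod_cast h1
  have h6 : (2 * k + 1 : ℚ) ≤ Nat.card Ω * (k ^ 2 / ∑ g ∈ s, (nfix Ω g : ℚ)) := by
    rw [← mul_div_assoc, le_div_iff₀ hS]; exact h5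
  have h7 := mul_le_mul_of_nonneg_left h4 (Nat.cast_nonneg (α := ℚ) (Nat.card Ω))
  linarith

open Classical in
omit [FaithfulSMul G Ω] [Finite Ω] in
theorem double_count [Fintype G] [Fintype Ω] (φ : G → ℚ) :
    ∑ p ∈ (univ : Finset Ω).offDiag, ∑ g with g ∈ St G p.1 p.2, φ g =
      ∑ g, ((nfix Ω g : ℚ) ^ 2 - nfix Ω g) * φ g := by
  rw [sum_comm' (t' := univ) (s' := fun g => (univ.filter fun w : Ω => g • w = w).offDiag) (by
    intro p g; simp only [mem_offDiag, mem_filter, mem_univ, true_and, and_true, mem_St]; tauto)]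
  refine sum_congr rfl fun g _ => ?_
  have e : (univ.filter fun w : Ω => g • w = w).card = nfix Ω g := by
    rw [nfix, Nat.card_eq_fintype_card, Fintype.card_subtype]; rfl
  rw [sum_const, offDiag_card, e, nsmul_eq_mul, Nat.cast_sub (Nat.le_mul_self _), Nat.cast_mul, sq]

end Cfsg.Agent.Der2
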